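import Cfsg.Agent.H255.IF.EType
import Cfsg.Agent.H209.IF.Kill

/-!
# S5719: from `Fix` to `KillE` (helper255)
-/

set_option autoImplicit false
set_option linter.unusedSectionVars false

namespace Cfsg.Agent.H255.IFC

open Cfsg Cfsg.Lie Cfsg.Agent.ChevalleyStructure Cfsg.Agent.ChevalleyStructure.Elts
  Cfsg.Agent.H934.HeisChev Cfsg.Agent.H209.Fxy

theorem charP_of_even (F : Type*) [Field F] [Fintype F] (h : Even (Fintype.card F)) : CharP F 2 := by
  obtain ⟨p, hp⟩ := CharP.exists F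
  obtain ⟨f, hpr, hf⟩ := FiniteField.card F p
  have h1 : 2 ∣ p := Nat.prime_two.dvd_of_dvd_pow (by rw [← hf]; exact h.two_dvd)
  have h2 : p = 2 := ((Nat.prime_dvd_prime_iff_eq Nat.prime_two hpr).1 h1).symm
  rwa [h2] at hp

theorem exists_ne_comm {D : ChevalleyDatum} (hD : InList D) {F : Type*} [Field F] {n k : ℕ} (T : HTab n k)
    (ok : T.Ok D) (hn : 0 < n) : ∃ a b : ↥(D.group F), a * b ≠ b * a := by
  set DD := (T.rh hD ok F).toData with hDD
  have hv : (Pi.single (⟨0, hn⟩ : Fin n) (1 : F) : Fin n → F) ≠ 0 := by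
    intro h
    have := congrFun h ⟨0, hn⟩
    rw [Pi.single_eq_same] at this
    exact one_ne_zero this
  obtain ⟨w, hw⟩ := DD.special _ hv 1
  refine ⟨DD.X (Pi.single (⟨0, hn⟩ : Fin n) (1 : F)), DD.X w, fun h => ?_⟩
  have h1 := DD.comm (Pi.single (⟨0, hn⟩ : Fin n) (1 : F)) w
  rw [h, hw] at h1
  have h2 : DD.z 1 = 1 := mul_eq_left.1 h1.symm
  exact one_ne_zero (DD.z_inj _ h2)

theorem killE_of {T : Type*} [Group T] [Finite T] [IsSimpleGroup T] (hna : ∃ a b : T, a * b ≠ b * a)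
    (h : ∀ A : Subgroup T, IFK.Fix A → ∀ t ∈ A, orderOf t = 2 → A = ⊤) : KillE T := by
  rintro A Γ hA ⟨t, ht, ho⟩
  exact hA.ne_top (h A (IFK.fix_of_IF hA hna) t ht ho)

end Cfsg.Agent.H255.IFC
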