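import Cfsg.Agent.H255.IF.EType
import Cfsg.Agent.H934.HeisE8
import Cfsg.Agent.H83.RedEEight
import Cfsg.Agent.H584.War.Num
import Cfsg.Agent.H255.IF.Cell

/-!
# S5719, `E₈(q)`, `q` even (helper255)
-/

set_option autoImplicit false

namespace Cfsg.Agent.H255.IFEEight

open Cfsg Cfsg.Lie Cfsg.Agent.ChevalleyStructure Cfsg.Agent.ChevalleyStructure.RootWord
  Cfsg.Agent.ChevalleyStructure.RootCombGood
  Cfsg.Agent.H430.CfChev Cfsg.Agent.H255.IFE Cfsg.Agent.H255.IFR Cfsg.Agent.H209.Fxy
open Cfsg.Agent.H934.HeisE8 (tab tab_ok)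

theorem hp : Cfsg.Agent.Nodes.RGDChev.IsType chevE8 8 CoxeterMatrix.E₈ := by
  simp [Cfsg.Agent.Nodes.RGDChev.IsType, Cfsg.Agent.Nodes.RGDChev.typeList]

def pp : List (List ℕ × List ℕ) := [([168, 162], [140, 77]), ([146, 141], [134, 98]), ([140, 135], [134, 104]),
  ([134, 130], [129, 109]), ([129, 126], [125, 113]), ([125, 123], [122, 116]), ([122, 121], [120, 118]),
  ([120], [238, 119])]

theorem hpp : okPaths chevE8 OE8 pp = true := by decide +kernel

theorem hallA : ∀ s < 60, 1 ≤ car chevE8 239 s → (∃ i, tab.S i = s) ∨ s = tab.th := by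
  decide +kernel

theorem hallB : ∀ s < 60, 1 ≤ car chevE8 239 (s + 60) → (∃ i, tab.S i = s + 60) ∨ s + 60 = tab.th := by
  decide +kernel

theorem hallC : ∀ s < 60, 1 ≤ car chevE8 239 (s + 120) → (∃ i, tab.S i = s + 120) ∨ s + 120 = tab.th := by
  decide +kernel

theorem hallD : ∀ s < 60, 1 ≤ car chevE8 239 (s + 180) → (∃ i, tab.S i = s + 180) ∨ s + 180 = tab.th := by
  decide +kernel

theorem nroots_eq : chevE8.nroots = 240 := rfl

theorem hall : ∀ s < chevE8.nroots, 1 ≤ car chevE8 (chevE8.nroots - 1) s → (∃ i, tab.S i = s) ∨ s = tab.th := by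
  intro s hs h1
  have hs' : s < 240 := hs
  have h1' : 1 ≤ car chevE8 239 s := h1
  rcases Nat.lt_or_ge s 60 with h | h
  · exact hallA s h h1'
  rcases Nat.lt_or_ge s 120 with h2 | h2
  · have h3 := hallB (s - 60) (by omega)
    rw [Nat.sub_add_cancel h] at h3
    exact h3 h1'
  rcases Nat.lt_or_ge s 180 with h4 | h4
  · have h3 := hallC (s - 120) (by omega)
    rw [Nat.sub_add_cancel h2] at h3
    exact h3 h1'
  · have h3 := hallD (s - 180) (by omega)
    rw [Nat.sub_add_cancel h4] at h3
    exact h3 h1'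

theorem th_not : car chevE8 239 tab.th ≠ 1 := by decide +kernel

theorem hlev : ∀ r ∈ OE8, car chevE8 (chevE8.nroots - 1) r = 1 → ∃ i, tab.S i = r := by
  intro r hr h1
  have hr' : r < chevE8.nroots := List.mem_range.1 hr
  rcases hall r hr' h1.ge with h | h
  · exact h
  · exact absurd (h ▸ h1 : car chevE8 (chevE8.nroots - 1) tab.th = 1) th_not

theorem hS : ∀ i, 1 ≤ car chevE8 (chevE8.nroots - 1) (tab.S i) := by decide +kernel

theorem rep1 : RepOK chevE8 tab 44 [239] := ⟨[], [239], by decide +kernel, by decide +kernel, by decide +kernel,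
  Or.inl (by decide +kernel)⟩

theorem rep2 : RepOK chevE8 tab 44 [239, 226] := ⟨[7, 6, 5, 4, 3, 2, 1, 3, 4, 5, 6], [238, 227], by decide +kernel,
  by decide +kernel, by decide +kernel, Or.inl (by decide +kernel)⟩

theorem rep3 : RepOK chevE8 tab 44 [239, 226, 159] := ⟨[7, 6], [238, 227, 160], by decide +kernel,
  by decide +kernel, by decide +kernel, Or.inl (by decide +kernel)⟩

theorem rep4 : RepOK chevE8 tab 44 [239, 226, 159, 152] := ⟨[7, 6, 5, 4, 3, 2, 1, 3, 4, 5, 6, 7, 0, 2],
  [226, 225, 203, 196], by decide +kernel, by decide +kernel, by decide +kernel,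
  Or.inr ⟨226, [225, 203, 196], rfl, by decide +kernel, by decide +kernel, by decide +kernel, by decide +kernel⟩⟩

theorem main {F : Type*} [Field F] [Fintype F] [CharP F 2] {A : Subgroup ↥(chevE8.group F)}
    (hA : IFK.Fix A) {t : ↥(chevE8.group F)} (ht : t ∈ A) (ho : orderOf t = 2) : A = ⊤ := by
  refine IFE.main (j := 44) (dim := 248) (c := 3) (e := 57) (m := 28) (distOk_all inE8 chkdE8) tab rfl hp
    H83.RedEEight.allchk_eq hlev hpp LE8_eq LE8_le carryE8 (by norm_num) rfl (by norm_num) (by norm_num) hS hall ?_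
    (by norm_num) ?_ tab_ok hA ht ho
  · have := H584.War.Num.card_E8 F
    rwa [Nat.card_eq_fintype_card (α := F)] at this
  · intro R hR
    simp only [H83.RedEEight.reps, List.mem_cons, List.not_mem_nil, or_false] at hR
    rcases hR with rfl | rfl | rfl | rfl | rfl
    · exact Or.inl rfl
    · exact Or.inr rep1
    · exact Or.inr rep2
    · exact Or.inr rep3
    · exact Or.inr rep4

/-- **The cell `e8_even`.** -/
theorem e8_even (F : Type) [Field F] [Fintype F] (h : Even (Fintype.card F)) (hs : IsSimpleGroup ↥(chevE8.group F)) :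
    KillE ↥(chevE8.group F) := by
  have := IFC.charP_of_even F h
  have hfin : Finite (GL chevE8.Idx F) := inferInstance
  have hfinG : Finite ↥(chevE8.group F) := inferInstance
  exact IFC.killE_of (IFC.exists_ne_comm hp.inList tab tab_ok (by norm_num)) fun A hA t ht ho => main hA ht ho

end Cfsg.Agent.H255.IFEEight
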