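import Cfsg.Agent.H255.IF.Root

/-!
# S5719, `E₆, E₇, E₈`, `q` even (helper255)

`main`: `A` with `Fix A` and an involution is the whole group, from tables: `T` the special group of the highest root
(all roots of level 1), paths from the highest root to the fundamental roots and their negatives, and for every
representative of the classes of involutions a word mapping it to `Q` (`inQ`) or to `x_r Q`, `r` of level 0 (`offQ`).
-/

set_option autoImplicit false
set_option linter.unusedSectionVars false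

namespace Cfsg.Agent.H255.IFE

open scoped Pointwise
open Cfsg Cfsg.Lie Cfsg.Agent.ChevalleyStructure Cfsg.Agent.ChevalleyStructure.Elts
  Cfsg.Agent.ChevalleyStructure.RootWord Cfsg.Agent.ChevalleyStructure.RootCombGood
  Cfsg.Agent.H934.HeisRoot Cfsg.Agent.H934.HeisData Cfsg.Agent.H934.HeisChev
  Cfsg.Agent.H430.CfChev Cfsg.Agent.H70.ChevFix Cfsg.Agent.H255.IFK Cfsg.Agent.H255.IFR Subgroup

universe u

variable {D : ChevalleyDatum} (hD : InList D) {F : Type u} [Field F] [Fintype F] [CharP F 2]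
  {O : List ℕ} {d : ℕ → ℕ} (hO : DistOk D O d) {n k : ℕ} (T : HTab n k) (ok : T.Ok D)
  (hth : T.th = D.nroots - 1)

local notation "xr" => H934.HeisChev.xe

/-- `Q` -/
noncomputable abbrev QQ : Subgroup ↥(D.group F) := (T.rh hD ok F).toData.Qg

/-- `Z` -/
noncomputable abbrev ZZ : Subgroup ↥(D.group F) := (T.rh hD ok F).toData.Zg

theorem x_mem_Q {r : ℕ} (h : (∃ i, T.S i = r) ∨ r = T.th) (a : F) : xr hD r a ∈ QQ hD T ok (F := F) := by
  rcases h with ⟨i, rfl⟩ | rfl
  · exact xS_mem hD T ok i a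
  · exact (T.rh hD ok F).toData.z_mem_Qg a

include hth in
/-- `Q` is the group of H86. -/
theorem mem_Q_iff (hS : ∀ i, 1 ≤ car D (D.nroots - 1) (T.S i))
    (hall : ∀ s < D.nroots, 1 ≤ car D (D.nroots - 1) s → (∃ i, T.S i = s) ∨ s = T.th) {g : ↥(D.group F)} :
    g ∈ QQ hD T ok (F := F) ↔ (g : GL D.Idx F) ∈ H86.Graded.Q D F (D.nroots - 1) := by
  have G := RootComb.good_of_mem hD
  constructor
  · rintro ⟨v, a, rfl⟩
    have h1 : ∀ (i : Fin n) (t : F), ((xr hD (T.S i) t : ↥(D.group F)) : GL D.Idx F) ∈ H86.Graded.Q D F (D.nroots - 1) := fun i t =>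
      H86.Graded.xG_mem_Q hD (ok.S_lt i) (hS i) t
    have h2 : ((xr hD T.th a : ↥(D.group F)) : GL D.Idx F) ∈ H86.Graded.Q D F (D.nroots - 1) := by
      refine H86.Graded.xG_mem_Q hD ok.th_lt ?_ a
      rw [hth, G.car_self (H86.Par.top_lt hD)]
      norm_num
    refine mul_mem (a := (((T.rh hD ok F).toData.X v : ↥(D.group F)) : GL D.Idx F)) ?_ h2
    have key : ∀ l : List (Fin n), (((T.rh hD ok F).P l v : ↥(D.group F)) : GL D.Idx F) ∈
        H86.Graded.Q D F (D.nroots - 1) := by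
      intro l
      induction l with
      | nil => exact one_mem _
      | cons i l ih =>
        rw [(T.rh hD ok F).P_cons]
        exact mul_mem (h1 i (v i)) ih
    exact key _
  · intro hg
    have h1 : H86.Graded.Q D F (D.nroots - 1) ≤ (QQ hD T ok (F := F)).map (D.group F).subtype := by
      rw [H86.Graded.Q_le_iff hD]
      intro r hr hl t
      exact ⟨xr hD r t, x_mem_Q hD T ok (hall r hr hl) t, rfl⟩
    obtain ⟨g', hg', e⟩ := h1 hg
    have : g' = g := Subtype.ext e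
    rwa [← this]

include hth in
/-- `N(Z)` normalises `Q`. -/
theorem norm_Q (hS : ∀ i, 1 ≤ car D (D.nroots - 1) (T.S i))
    (hall : ∀ s < D.nroots, 1 ≤ car D (D.nroots - 1) s → (∃ i, T.S i = s) ∨ s = T.th) {g : ↥(D.group F)}
    (hg : g ∈ Subgroup.normalizer (XX D F (D.nroots - 1) : Set ↥(D.group F))) {x : ↥(D.group F)}
    (hx : x ∈ QQ hD T ok (F := F)) : g * x * g⁻¹ ∈ QQ hD T ok (F := F) := by
  rw [mem_Q_iff hD T ok hth hS hall] at hx ⊢
  refine H86.Par.P_conj_Q hD ?_ _ hx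
  refine H86.Par.mem_P_iff hD g.2 (fun t => ?_) (fun t => ?_)
  · obtain ⟨t', ht'⟩ := (mem_XX hD).1 ((Subgroup.mem_normalizer_iff.1 hg _).1 (xe_mem_XX hD (D.nroots - 1) t))
    exact ⟨t', congrArg Subtype.val ht'⟩
  · have hg' := inv_mem hg
    obtain ⟨t', ht'⟩ := (mem_XX hD).1 ((Subgroup.mem_normalizer_iff.1 hg' _).1 (xe_mem_XX hD (D.nroots - 1) t))
    rw [inv_inv] at ht'
    exact ⟨t', congrArg Subtype.val ht'⟩

include hD hO hth in
/-- classes meeting `Q` -/
theorem index_Q_le (hS : ∀ i, 1 ≤ car D (D.nroots - 1) (T.S i))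
    (hall : ∀ s < D.nroots, 1 ≤ car D (D.nroots - 1) s → (∃ i, T.S i = s) ∨ s = T.th)
    {c e : ℕ} {L : List ℕ} (hL : O.map d = L) (hk : ∀ x ∈ L, x ≤ e) (hcar : carry L e ≤ c)
    {t : ↥(D.group F)} (ht : t ∈ QQ hD T ok (F := F)) :
    (centralizer ({t} : Set ↥(D.group F))).index ≤ c * Fintype.card F ^ e * Fintype.card F ^ (n + 1) := by
  have hfin : Finite (GL D.Idx F) := inferInstance
  have hfinG : Finite ↥(D.group F) := inferInstance
  have h1 := index_normalizer_le (F := F) hD hO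
  have h2 : (O.map fun r => Nat.card F ^ d r) = L.map fun x => Nat.card F ^ x := by
    rw [← hL, List.map_map]; rfl
  rw [h2] at h1
  have h3 := h1.trans ((sum_le Finite.one_lt_card L e hk).trans (Nat.mul_le_mul_right _ hcar))
  rw [Nat.card_eq_fintype_card] at h3
  have h4 := index_centralizer_le (N := Subgroup.normalizer (XX D F (D.nroots - 1) : Set ↥(D.group F)))
    (Q := QQ hD T ok (F := F)) (fun m hm x hx => norm_Q hD T ok hth hS hall hm hx) ht
  refine h4.trans (Nat.mul_le_mul h3 (le_of_eq ?_))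
  rw [(T.rh hD ok F).toData.card_Qg, Nat.card_fun, Nat.card_eq_fintype_card, Nat.card_eq_fintype_card,
    Fintype.card_fin, pow_succ]

/-- the fundamental paths -/
def okPaths (D : ChevalleyDatum) (O : List ℕ) (pp : List (List ℕ × List ℕ)) : Bool :=
  decide (pp.length = D.rank) && (List.range D.rank).all fun i =>
    let p := pp.getD i ([], [])
    okPath D O (D.nroots - 1) p.1 && okPath D O (D.nroots - 1) p.2 && decide (p.1 ≠ []) && decide (p.2 ≠ []) &&
      decide (p.1.getLastD 0 = D.simple i) && decide (p.2.getLastD 0 = D.neg (D.simple i))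

theorem getLast_eq {l : List ℕ} (hl : l ≠ []) {r : ℕ} (h : l.getLastD 0 = r) : l.getLast hl = r := by
  rw [← h, List.getLastD_eq_getLast?, List.getLast?_eq_some_getLast hl]
  rfl

variable (hlev : ∀ r ∈ O, car D (D.nroots - 1) r = 1 → ∃ i, T.S i = r)

include hO hth hlev in
/-- **(S1)** -/
theorem eq_top_of_top {pp : List (List ℕ × List ℕ)} (hpp : okPaths D O pp = true) {c e m : ℕ} {L : List ℕ}
    (hL : O.map d = L) (hk : ∀ x ∈ L, x ≤ e) (hcar : carry L e ≤ c)
    (hc : c < 16) (hm : n = 2 * m) (he : e + 1 + 4 ≤ 5 * m) (ok : T.Ok D) {A : Subgroup ↥(D.group F)}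
    (hA : IFK.Fix A) {a : F} (ha : a ≠ 0) (h : xr hD (D.nroots - 1) a ∈ A) : A = ⊤ := by
  refine IFR.eq_top hD fun i hi t => ?_
  unfold okPaths at hpp
  rw [Bool.and_eq_true, List.all_eq_true] at hpp
  have h1 := hpp.2 i (List.mem_range.2 hi)
  simp only [Bool.and_eq_true, decide_eq_true_eq] at h1
  obtain ⟨⟨⟨⟨⟨h2, h3⟩, h4⟩, h5⟩, h6⟩, h7⟩ := h1
  constructor
  · rw [← getLast_eq h4 h6]
    exact path hD hO T ok hth hlev hL hk hcar hc hm he hA _ _ hO.top h2 ⟨a, ha, h⟩ h4 t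
  · rw [← getLast_eq h5 h7]
    exact path hD hO T ok hth hlev hL hk hcar hc hm he hA _ _ hO.top h3 ⟨a, ha, h⟩ h5 t

/-- `A` meets no conjugate of `Z`. -/
def NoZ (A : Subgroup ↥(D.group F)) : Prop := ∀ g : ↥(D.group F), (MulAut.conj g • A) ⊓ ZZ hD T ok (F := F) = ⊥

/-- `A` meets no conjugate of `Q`. -/
def NoQ (A : Subgroup ↥(D.group F)) : Prop := ∀ g : ↥(D.group F), (MulAut.conj g • A) ⊓ QQ hD T ok (F := F) = ⊥

theorem num_two {q m c e : ℕ} (hq : 2 ≤ q) (hc : c < 4) (he : e + (2 * m + 1) + 2 ≤ 5 * m) {I : ℕ}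
    (h1 : (q * q ^ m) ^ 5 < (q * 1) ^ 5 * I) (h2 : I ≤ c * q ^ e * q ^ (2 * m + 1)) : False := by
  have h3 : (q * q ^ m) ^ 5 = q ^ 5 * q ^ (5 * m) := by
    rw [mul_pow, ← pow_mul, mul_comm m 5]
  have h4 : q ^ 5 * q ^ (5 * m) < q ^ 5 * I := by
    rw [← h3]; simpa using h1
  have h5 : q ^ (5 * m) < I := lt_of_mul_lt_mul_left h4 (Nat.zero_le _)
  have h6 : 4 * (q ^ e * q ^ (2 * m + 1)) ≤ q ^ (5 * m) := by
    calc 4 * (q ^ e * q ^ (2 * m + 1)) ≤ q ^ 2 * (q ^ e * q ^ (2 * m + 1)) := by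
          refine Nat.mul_le_mul_right _ ?_
          calc 4 = 2 ^ 2 := by norm_num
            _ ≤ q ^ 2 := Nat.pow_le_pow_left hq 2
      _ = q ^ (e + (2 * m + 1) + 2) := by ring
      _ ≤ _ := Nat.pow_le_pow_right (by omega) he
  have h7 : c * q ^ e * q ^ (2 * m + 1) < q ^ (5 * m) := by
    have h8 : 0 < q ^ e * q ^ (2 * m + 1) := Nat.mul_pos (pow_pos (by omega) _) (pow_pos (by omega) _)
    calc c * q ^ e * q ^ (2 * m + 1) = c * (q ^ e * q ^ (2 * m + 1)) := by ring
      _ < 4 * (q ^ e * q ^ (2 * m + 1)) := Nat.mul_lt_mul_of_pos_right hc h8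
      _ ≤ _ := h6
  omega

include hO hth hlev in
theorem noZ {pp : List (List ℕ × List ℕ)} (hpp : okPaths D O pp = true) {c e m : ℕ} {L : List ℕ}
    (hL : O.map d = L) (hk : ∀ x ∈ L, x ≤ e) (hcar : carry L e ≤ c)
    (hc : c < 16) (hm : n = 2 * m) (he : e + 1 + 4 ≤ 5 * m) {A : Subgroup ↥(D.group F)}
    (hA : IFK.Fix A) (hne : A ≠ ⊤) : NoZ hD T ok A := by
  have hfin : Finite (GL D.Idx F) := inferInstance
  have hfinG : Finite ↥(D.group F) := inferInstance
  intro g
  rw [Subgroup.eq_bot_iff_forall]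
  rintro z ⟨hzA, a, rfl⟩
  by_contra hz1
  have ha : a ≠ 0 := by
    rintro rfl
    exact hz1 (T.rh hD ok F).toData.z_zero
  have h1 : xr hD (D.nroots - 1) a ∈ MulAut.conj g • A := by
    rw [← hth]
    exact hzA
  have h2 := eq_top_of_top hD hO T hth hlev hpp hL hk hcar hc hm he ok (hA.conj g) ha h1
  apply hne
  rw [Subgroup.eq_top_iff']
  intro x
  have h3 : g * x * g⁻¹ ∈ MulAut.conj g • A := by rw [h2]; exact mem_top _
  rw [mem_conj] at h3
  have e1 : g⁻¹ * (g * x * g⁻¹) * g = x := by group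
  rwa [e1] at h3

include hO hth in
/-- **(S2)** -/
theorem noQ (hS : ∀ i, 1 ≤ car D (D.nroots - 1) (T.S i))
    (hall : ∀ s < D.nroots, 1 ≤ car D (D.nroots - 1) s → (∃ i, T.S i = s) ∨ s = T.th)
    {c e m : ℕ} {L : List ℕ} (hL : O.map d = L) (hk : ∀ x ∈ L, x ≤ e) (hcar : carry L e ≤ c)
    (hc : c < 4) (hm : n = 2 * m) (he : e + (2 * m + 1) + 2 ≤ 5 * m) {A : Subgroup ↥(D.group F)}
    (hA : IFK.Fix A) (hZ : NoZ hD T ok A) : NoQ hD T ok A := by
  have hfin : Finite (GL D.Idx F) := inferInstance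
  have hfinG : Finite ↥(D.group F) := inferInstance
  intro g
  set A' := MulAut.conj g • A with hA'
  have hFix : IFK.Fix A' := hA.conj g
  have hZ' := hZ g
  rw [← hA'] at hZ'
  set DD := (T.rh hD ok F).toData with hDD
  have hq : Nat.card DD.Zg = Fintype.card F := by rw [DD.card_Zg, Nat.card_eq_fintype_card]
  have hQ : Nat.card DD.Qg = Fintype.card F * (Fintype.card F ^ m) ^ 2 := by
    rw [DD.card_Qg, Nat.card_fun, Nat.card_eq_fintype_card, Nat.card_eq_fintype_card, Fintype.card_fin, hm]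
    ring
  have hZA : ¬ DD.Zg ≤ A' := by
    intro h
    have h1 : DD.z 1 ∈ (A' ⊓ DD.Zg : Subgroup ↥(D.group F)) := ⟨h ⟨1, rfl⟩, ⟨1, rfl⟩⟩
    rw [hZ', Subgroup.mem_bot] at h1
    exact one_ne_zero (DD.z_inj _ h1)
  -- an element of order 2
  by_contra hne
  have hex : ∃ t ∈ (A' ⊓ DD.Qg : Subgroup ↥(D.group F)), orderOf t = 2 := by
    have h1 : 1 < Nat.card (A' ⊓ DD.Qg : Subgroup ↥(D.group F)) := by
      have := Nat.card_pos (α := (A' ⊓ DD.Qg : Subgroup ↥(D.group F)))
      rcases Nat.lt_or_ge 1 (Nat.card (A' ⊓ DD.Qg : Subgroup ↥(D.group F))) with h | h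
      · exact h
      · have h5 : Nat.card (A' ⊓ DD.Qg : Subgroup ↥(D.group F)) = 1 := by omega
        exact absurd ((Subgroup.card_eq_one).1 h5) hne
    have h2 : Nat.card (A' ⊓ DD.Qg : Subgroup ↥(D.group F)) ∣ Nat.card DD.Qg := Subgroup.card_dvd_of_le inf_le_right
    obtain ⟨f, -, hf⟩ := FiniteField.card F 2
    rw [hQ, hf] at h2
    have h3 : Nat.card (A' ⊓ DD.Qg : Subgroup ↥(D.group F)) ∣ 2 ^ ((f : ℕ) + (f : ℕ) * m * 2) := by
      rw [pow_add, pow_mul, pow_mul]
      exact h2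
    obtain ⟨j, -, hj⟩ := (Nat.dvd_prime_pow Nat.prime_two).1 h3
    have h4 : 2 ∣ Nat.card (A' ⊓ DD.Qg : Subgroup ↥(D.group F)) := by
      rw [hj] at h1 ⊢
      rcases j with _ | j
      · omega
      · exact dvd_pow_self 2 (Nat.succ_ne_zero j)
    have : Fact (Nat.Prime 2) := ⟨Nat.prime_two⟩
    obtain ⟨t, ht⟩ := exists_prime_orderOf_dvd_card' 2 h4
    exact ⟨t, t.2, by rw [Subgroup.orderOf_coe, ht]⟩
  obtain ⟨t, ⟨htA, htQ⟩, ho⟩ := hex
  have h1 := s2 hFix (sp_of_data DD) (n := Fintype.card F ^ m) (w := 1) hq hq hQ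
    (by rw [hZ', Subgroup.card_bot]) hZA htA htQ ho
  have h2 := index_Q_le hD hO T ok hth hS hall hL hk hcar htQ
  rw [hm] at h2
  exact num_two Fintype.one_lt_card hc he h1 h2

/-! ### (S3) -/

/-- `x_{S i}` commutes with `x_r` -/
def gd (D : ChevalleyDatum) (T : HTab n k) (r : ℕ) (i : Fin n) : Bool :=
  decide (r ≠ T.S i) && decide (r ≠ D.neg (T.S i)) && (D.commTerms (T.S i) r).isEmpty

theorem gd_comm {r : ℕ} (hr : r < D.nroots) {i : Fin n} (h : gd D T r i = true) (ok : T.Ok D) (a b : F) :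
    xr hD r a * xr hD (T.S i) b = xr hD (T.S i) b * xr hD r a := by
  unfold gd at h
  rw [Bool.and_eq_true, Bool.and_eq_true, decide_eq_true_eq, decide_eq_true_eq, List.isEmpty_iff] at h
  exact comm_nil hD (ok.S_lt i) hr h.1.1 h.1.2 h.2 b a

include hth in
theorem card_cent {r j : ℕ} (hr : r < D.nroots) (h0 : 0 ≤ car D (D.nroots - 1) r)
    (hj : j ≤ Fintype.card {i : Fin n // gd D T r i = true}) :
    Fintype.card F ^ (j + 1) ≤
      Nat.card (QQ hD T ok (F := F) ⊓ centralizer ({xr hD r 1} : Set ↥(D.group F)) : Subgroup ↥(D.group F)) := by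
  classical
  have hfin : Finite (GL D.Idx F) := inferInstance
  have hfinG : Finite ↥(D.group F) := inferInstance
  set R := T.rh hD ok F with hR
  set DD := R.toData with hDD
  let ext : ({i : Fin n // gd D T r i = true} → F) → (Fin n → F) := fun w i =>
    if h : gd D T r i = true then w ⟨i, h⟩ else 0
  have hext : ∀ w i, gd D T r i ≠ true → ext w i = 0 := fun w i h => dif_neg h
  have hcm : ∀ w, xr hD r 1 * DD.X (ext w) = DD.X (ext w) * xr hD r 1 := by
    intro w
    show xr hD r 1 * R.P _ (ext w) = R.P _ (ext w) * xr hD r 1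
    generalize (Finset.univ : Finset (Fin n)).toList = l
    induction l with
    | nil => rw [R.P_nil, mul_one, one_mul]
    | cons i l ih =>
      rw [R.P_cons, ← mul_assoc]
      have h1 : xr hD r 1 * R.x i (ext w i) = R.x i (ext w i) * xr hD r 1 := by
        by_cases h : gd D T r i = true
        · exact gd_comm hD T hr h ok 1 (ext w i)
        · rw [hext w i h, R.x_zero, mul_one, one_mul]
      rw [h1, mul_assoc, ih, mul_assoc]
  have hcz : ∀ a, xr hD r 1 * DD.z a = DD.z a * xr hD r 1 := by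
    intro a
    show xr hD r 1 * xr hD T.th a = xr hD T.th a * xr hD r 1
    rw [hth]
    exact Subtype.ext (H86.Par.comm_top0 hD hr h0 1 a)
  have h1 : Nat.card (({i : Fin n // gd D T r i = true} → F) × F) ≤
      Nat.card (QQ hD T ok (F := F) ⊓ centralizer ({xr hD r 1} : Set ↥(D.group F)) : Subgroup ↥(D.group F)) := by
    refine Nat.card_le_card_of_injective (fun p => ⟨DD.X (ext p.1) * DD.z p.2, ⟨p.1 |> ext, p.2, rfl⟩, ?_⟩) ?_
    · show DD.X (ext p.1) * DD.z p.2 ∈ centralizer ({xr hD r 1} : Set ↥(D.group F))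
      rw [Subgroup.mem_centralizer_singleton_iff, mul_assoc, ← hcz, ← mul_assoc, ← hcm, mul_assoc]
    · intro p p' h
      obtain ⟨h2, h3⟩ := DD.eq_of_mul_eq (congrArg Subtype.val h)
      refine Prod.ext ?_ h3
      funext i
      have h4 := congrFun h2 i
      have h5 : ∀ w : ({i : Fin n // gd D T r i = true} → F), ext w i = w i := fun w => dif_pos i.2
      rw [h5, h5] at h4
      exact h4
  refine le_trans ?_ h1
  rw [Nat.card_prod, Nat.card_fun, Nat.card_eq_fintype_card, Nat.card_eq_fintype_card, pow_succ]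
  exact Nat.mul_le_mul_right _ (Nat.pow_le_pow_right Fintype.card_pos hj)

/-- the product of `x_r(1)` over a list -/
def PXe (F : Type u) [Field F] (L : List ℕ) : ↥(D.group F) := (L.map fun r => xr hD r (1 : F)).prod

theorem coe_PXe (L : List ℕ) : ((PXe hD F L : ↥(D.group F)) : GL D.Idx F) = H83.ChevInv.PX hD F L := by
  induction L with
  | nil => rfl
  | cons r L ih =>
    rw [H83.ChevInv.PX_cons, ← ih, PXe, List.map_cons, List.prod_cons]
    rfl

theorem PXe_cons (r : ℕ) (L : List ℕ) : PXe hD F (r :: L) = xr hD r 1 * PXe hD F L := by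
  rw [PXe, List.map_cons, List.prod_cons]; rfl

theorem conj_PXe {g : ↥(D.group F)} {w : List ℕ}
    (hg : ∀ s < D.nroots, ∀ t : F, g * xr hD s t * g⁻¹ = xr hD (wact D w s) t) {L : List ℕ}
    (hL : ∀ r ∈ L, r < D.nroots) : g * PXe hD F L * g⁻¹ = PXe hD F (L.map (wact D w)) := by
  induction L with
  | nil =>
    show g * 1 * g⁻¹ = 1
    rw [mul_one, mul_inv_cancel]
  | cons r L ih =>
    rw [List.map_cons, PXe_cons, PXe_cons, ← ih fun x hx => hL x (by simp [hx]), ← hg r (hL r (by simp))]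
    group

/-- the representative `R` is conjugate into `Q` or into `x_r Q` -/
def RepOK (D : ChevalleyDatum) (T : HTab n k) (j : ℕ) (R : List ℕ) : Prop :=
  ∃ w L', (∀ a ∈ w, a < D.rank) ∧ (∀ r ∈ R, r < D.nroots) ∧ R.map (wact D w) = L' ∧
    ((∀ s ∈ L', s < D.nroots ∧ 1 ≤ car D (D.nroots - 1) s) ∨
      ∃ r L'', L' = r :: L'' ∧ r < D.nroots ∧ 0 ≤ car D (D.nroots - 1) r ∧
        (∀ s ∈ L'', s < D.nroots ∧ 1 ≤ car D (D.nroots - 1) s) ∧
        j ≤ Fintype.card {i : Fin n // gd D T r i = true})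

theorem PXe_mem_Q (hall : ∀ s < D.nroots, 1 ≤ car D (D.nroots - 1) s → (∃ i, T.S i = s) ∨ s = T.th) {L : List ℕ}
    (h : ∀ s ∈ L, s < D.nroots ∧ 1 ≤ car D (D.nroots - 1) s) : PXe hD F L ∈ QQ hD T ok (F := F) := by
  induction L with
  | nil => exact one_mem _
  | cons r L ih =>
    rw [PXe_cons]
    have h1 := h r (by simp)
    exact mul_mem (x_mem_Q hD T ok (hall r h1.1 h1.2) 1) (ih fun x hx => h x (by simp [hx]))

include hth in
/-- **(S3)** -/
theorem not_rep (hall : ∀ s < D.nroots, 1 ≤ car D (D.nroots - 1) s → (∃ i, T.S i = s) ∨ s = T.th) {j dim : ℕ}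
    (hcard : Nat.card ↥(D.group F) ≤ Fintype.card F ^ dim) (hdim : dim ≤ 6 * j) {R : List ℕ} (hR : RepOK D T j R)
    {A : Subgroup ↥(D.group F)} (hA : IFK.Fix A) (hQ : NoQ hD T ok A) {t g : ↥(D.group F)} (ht : t ∈ A)
    (ho : orderOf t = 2) (hg : g * t * g⁻¹ = PXe hD F R) : False := by
  have hfin : Finite (GL D.Idx F) := inferInstance
  have hfinG : Finite ↥(D.group F) := inferInstance
  obtain ⟨w, L', hw, hRl, hL', hk⟩ := hR
  obtain ⟨y, -, hy⟩ := exists_weyl hD (⊤ : Subgroup ↥(D.group F)) (fun _ _ => mem_top _) hw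
  have h1 := conj_PXe hD hy hRl
  rw [hL', ← hg] at h1
  -- `t' = (y g) t (y g)⁻¹`
  have h2 : (y * g) * t * (y * g)⁻¹ = PXe hD F L' := by
    rw [← h1]; group
  set A' := MulAut.conj (y * g) • A with hA'
  have hFix : IFK.Fix A' := hA.conj _
  have htA : PXe hD F L' ∈ A' := by
    rw [← h2]
    exact conj_mem_conj ht
  have ho' : orderOf (PXe hD F L') = 2 := by
    rw [← h2, ← ho]
    exact orderOf_injective (MulAut.conj (y * g)).toMonoidHom (MulAut.conj (y * g)).injective t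
  have hQ' := hQ (y * g)
  rw [← hA'] at hQ'
  rcases hk with hk | ⟨r, L'', rfl, hr, h0, hk, hj⟩
  · have h3 : PXe hD F L' ∈ (A' ⊓ QQ hD T ok (F := F) : Subgroup ↥(D.group F)) :=
      ⟨htA, PXe_mem_Q hD T ok hall hk⟩
    rw [hQ', Subgroup.mem_bot] at h3
    rw [h3, orderOf_one] at ho'
    exact absurd ho' (by norm_num)
  · have hyQ := PXe_mem_Q hD T ok hall hk (F := F)
    set DD := (T.rh hD ok F).toData with hDD
    set R1 := (DD.Qg ⊓ centralizer ({xr hD r 1} : Set ↥(D.group F)) : Subgroup ↥(D.group F)) with hR1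
    have h3 := card_cent hD T ok hth hr h0 hj (F := F)
    have h4 := card_centralizer_ge (sp_of_data DD) (R := R1) inf_le_left hyQ
    have hq : Nat.card DD.Zg = Fintype.card F := by rw [DD.card_Zg, Nat.card_eq_fintype_card]
    rw [hq] at h4
    have hqpos : 0 < Fintype.card F := Fintype.card_pos
    set B := (R1 ⊓ centralizer ({PXe hD F L''} : Set ↥(D.group F)) : Subgroup ↥(D.group F)) with hB
    have h5 : Fintype.card F ^ j ≤ Nat.card B := by
      have h6 : Fintype.card F ^ j * Fintype.card F ≤ Nat.card B * Fintype.card F := by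
        rw [← pow_succ]
        exact h3.trans h4
      exact Nat.le_of_mul_le_mul_right h6 hqpos
    have hBc : B ≤ centralizer ({PXe hD F (r :: L'')} : Set ↥(D.group F)) := by
      rintro b ⟨⟨-, hb1⟩, hb2⟩
      have e1 := Subgroup.mem_centralizer_singleton_iff.1 hb1
      have e2 := Subgroup.mem_centralizer_singleton_iff.1 hb2
      rw [Subgroup.mem_centralizer_singleton_iff, PXe_cons, ← mul_assoc, e1, mul_assoc, e2, mul_assoc]
    have hAB : (A' ⊓ B : Subgroup ↥(D.group F)) = ⊥ := by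
      rw [eq_bot_iff, ← hQ']
      exact le_inf inf_le_left (inf_le_right.trans (inf_le_left.trans inf_le_left))
    have h6 := s3 hFix htA ho' hBc hAB
    have h7 : Fintype.card F ^ dim ≤ Nat.card B ^ 6 := by
      calc Fintype.card F ^ dim ≤ Fintype.card F ^ (6 * j) := Nat.pow_le_pow_right hqpos hdim
        _ = (Fintype.card F ^ j) ^ 6 := by rw [← pow_mul, mul_comm]
        _ ≤ _ := Nat.pow_le_pow_left h5 6
    omega

include hO hth in
/-- **The main theorem.** -/
theorem main {l : ℕ} {M : CoxeterMatrix (Fin l)} (hp : Cfsg.Agent.Nodes.RGDChev.IsType D l M)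
    {certs : List H83.RedGen.Cert} {words reps : List (List ℕ)} {N : ℕ}
    (hreps : H83.RedGen.allchk D certs words reps N = true)
    (hlev : ∀ r ∈ O, car D (D.nroots - 1) r = 1 → ∃ i, T.S i = r)
    {pp : List (List ℕ × List ℕ)} (hpp : okPaths D O pp = true) {c e m : ℕ} {L : List ℕ}
    (hL : O.map d = L) (hk : ∀ x ∈ L, x ≤ e) (hcar : carry L e ≤ c)
    (hc : c < 4) (hm : n = 2 * m) (he : e + 1 + 4 ≤ 5 * m) (he' : e + (2 * m + 1) + 2 ≤ 5 * m)
    (hS : ∀ i, 1 ≤ car D (D.nroots - 1) (T.S i))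
    (hall : ∀ s < D.nroots, 1 ≤ car D (D.nroots - 1) s → (∃ i, T.S i = s) ∨ s = T.th) {j dim : ℕ}
    (hcard : Nat.card ↥(D.group F) ≤ Fintype.card F ^ dim) (hdim : dim ≤ 6 * j)
    (hrep : ∀ R ∈ reps, R = [] ∨ RepOK D T j R) (ok : T.Ok D) {A : Subgroup ↥(D.group F)}
    (hA : IFK.Fix A) {t : ↥(D.group F)} (ht : t ∈ A) (ho : orderOf t = 2) : A = ⊤ := by
  by_contra hne
  have hZ := noZ hp.inList hO T ok hth hlev hpp hL hk hcar (by omega) hm he hA hne
  have hQ := noQ hp.inList hO T ok hth hS hall hL hk hcar hc hm he' hA hZ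
  have htt : (t : GL D.Idx F) * t = 1 := by
    have h3 := pow_orderOf_eq_one t
    rw [ho, pow_two] at h3
    exact congrArg Subtype.val h3
  obtain ⟨R, hR, g, hg, hgt⟩ := H83.Count.exists_rep hp hreps t.2 htt
  have hgt' : (⟨g, hg⟩ : ↥(D.group F)) * t * (⟨g, hg⟩ : ↥(D.group F))⁻¹ = PXe hp.inList F R := by
    apply Subtype.ext
    rw [coe_PXe]
    exact hgt
  rcases hrep R hR with rfl | hR'
  · have h1 : t = 1 := by
      have h2 : (⟨g, hg⟩ : ↥(D.group F)) * t * (⟨g, hg⟩ : ↥(D.group F))⁻¹ = 1 := hgt'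
      have h3 := mul_inv_eq_one.1 h2
      exact mul_eq_left.1 h3
    rw [h1, orderOf_one] at ho
    exact absurd ho (by norm_num)
  · exact not_rep hp.inList T ok hth hall hcard hdim hR' hA hQ ht ho hgt'

end Cfsg.Agent.H255.IFE
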