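import Cfsg.Agent.H255.IF.Key
import Cfsg.Agent.H934.HeisSq

/-!
# S5719, `q` even: two more abstract lemmas (helper255)
-/

set_option autoImplicit false
set_option linter.unusedSectionVars false

namespace Cfsg.Agent.H255.IFK

open MulAction Subgroup Cfsg.Agent.H209.Fxy Cfsg.Agent.H934.HeisSq

open scoped Pointwise

section D0

variable {Γ V A : Type*} [Group Γ] [AddCommGroup V] [AddCommGroup A] (D : D0 Γ V A)

theorem Zg_le : D.Zg ≤ D.Qg := by
  rintro _ ⟨a, rfl⟩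
  exact D.z_mem_Qg a

theorem sp_of_D0 : Sp D.Zg D.Zg D.Qg where
  le := le_rfl
  le' := Zg_le D
  central := by
    rintro w ⟨a, rfl⟩ x hx
    exact D.zQ_comm hx a
  comm_mem := by
    rintro x ⟨v, a, rfl⟩ y ⟨w, b, rfl⟩
    exact ⟨D.om v w, (D.comm_eq v w a b).symm⟩
  special := by
    rintro x ⟨v, a, rfl⟩ hx z ⟨b, rfl⟩
    have hv : v ≠ 0 := by
      rintro rfl
      apply hx
      obtain ⟨c, hc⟩ := D.exists_X_zero
      exact ⟨c + a, by rw [D.z_add, ← hc]⟩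
    obtain ⟨w, hw⟩ := D.special v hv b
    refine ⟨D.X w, D.X_mem_Qg w, ?_⟩
    have h1 := D.comm_eq v w a 0
    rw [D.z_zero, mul_one, hw] at h1
    exact h1

end D0

section

variable {T : Type*} [Group T] [Finite T] {Z W Q A : Subgroup T}

/-- **(S2) for a central element.** -/
theorem s2c (hA : Fix A) (hS : Sp Z W Q) {n w k : ℕ} (hk : Nat.card W = k)
    (hQ : Nat.card Q = k * n ^ 2)
    (hw : Nat.card (A ⊓ W : Subgroup T) ≤ w) (hZA : ¬ Z ≤ A) {t : T} (ht : t ∈ A) (htW : t ∈ W)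
    (ho : orderOf t = 2) : (k * n) ^ 5 < w ^ 5 * (centralizer ({t} : Set T)).index := by
  obtain ⟨f, h1, h2⟩ := hA t ht ho
  have hk0 : 0 < k := by rw [← hk]; exact Nat.card_pos
  have hw0 : 0 < w := lt_of_lt_of_le Nat.card_pos hw
  have hQt : Q ≤ centralizer ({t} : Set T) := by
    intro x hx
    rw [Subgroup.mem_centralizer_singleton_iff]
    exact hS.central t htW x hx
  have h3 := rel_ge (h1 Q hQt)
  have h5 : Nat.card (A ⊓ Q : Subgroup T) ≤ n * w := by
    have h6 := iso hS (R := A ⊓ Q) inf_le_right (fun h => hZA (h.trans inf_le_left))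
    rw [hk, hQ] at h6
    have h7 : (A ⊓ Q ⊓ W : Subgroup T) = A ⊓ W := by
      rw [inf_assoc, inf_eq_right.2 hS.le']
    rw [h7] at h6
    have h8 : Nat.card (A ⊓ Q : Subgroup T) ^ 2 ≤ (n * w) ^ 2 := by
      have h9 : Nat.card (A ⊓ Q : Subgroup T) ^ 2 * k ≤ (n * w) ^ 2 * k := by
        calc _ ≤ _ := h6
          _ ≤ (k * n ^ 2) * w ^ 2 := Nat.mul_le_mul_left _ (Nat.pow_le_pow_left hw 2)
          _ = _ := by ring
      exact Nat.le_of_mul_le_mul_right h9 hk0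
    exact (Nat.pow_le_pow_iff_left two_ne_zero).1 h8
  have h6 : k * n ≤ w * f := by
    rcases Nat.eq_zero_or_pos n with h0 | h0
    · rw [h0, mul_zero]; exact Nat.zero_le _
    · have h7 : n * (k * n) ≤ n * (w * f) := by
        calc n * (k * n) = k * n ^ 2 := by ring
          _ ≤ Nat.card (A ⊓ Q : Subgroup T) * f := by rw [← hQ]; exact h3
          _ ≤ (n * w) * f := Nat.mul_le_mul_right _ h5
          _ = _ := by ring
      exact Nat.le_of_mul_le_mul_left h7 h0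
  have h7 : 1 ≤ {u : T | u ∈ A ∧ IsConj t u}.ncard :=
    (Set.ncard_pos (Set.toFinite _)).2 ⟨t, ht, IsConj.refl t⟩
  have h8 : f ^ 5 < (centralizer ({t} : Set T)).index :=
    lt_of_le_of_lt (Nat.le_mul_of_pos_right _ h7) h2
  calc (k * n) ^ 5 ≤ (w * f) ^ 5 := Nat.pow_le_pow_left h6 5
    _ = w ^ 5 * f ^ 5 := by ring
    _ < _ := Nat.mul_lt_mul_of_pos_left h8 (pow_pos hw0 5)

/-- two subgroups of a group meeting trivially -/
theorem card_inf_mul_le (hZW : Z ≤ W) (h : (A ⊓ Z : Subgroup T) = ⊥) :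
    Nat.card (A ⊓ W : Subgroup T) * Nat.card Z ≤ Nat.card W := by
  rw [← Nat.card_prod]
  refine Nat.card_le_card_of_injective
    (fun p : (A ⊓ W : Subgroup T) × Z => (⟨(p.1 : T) * p.2, mul_mem p.1.2.2 (hZW p.2.2)⟩ : W)) ?_
  rintro ⟨a, z⟩ ⟨a', z'⟩ he
  have h1 : (a : T) * z = a' * z' := congrArg Subtype.val he
  have h2 : ((a' : T)⁻¹ * a) = z' * (z : T)⁻¹ := by
    calc (a' : T)⁻¹ * a = (a' : T)⁻¹ * ((a : T) * z) * (z : T)⁻¹ := by group
      _ = (a' : T)⁻¹ * ((a' : T) * z') * (z : T)⁻¹ := by rw [h1]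
      _ = _ := by group
  have h3 : ((a' : T)⁻¹ * a) ∈ (A ⊓ Z : Subgroup T) := by
    refine ⟨A.mul_mem (A.inv_mem a'.2.1) a.2.1, ?_⟩
    have h6 : (z' : T) * (z : T)⁻¹ ∈ Z := Z.mul_mem z'.2 (Z.inv_mem z.2)
    rw [h2]
    exact h6
  rw [h, Subgroup.mem_bot] at h3
  have h4 : (a : T) = a' := (inv_mul_eq_one.1 h3).symm
  have h5 : (z : T) = z' := by
    rw [h4] at h1
    exact mul_left_cancel h1
  exact Prod.ext (Subtype.ext h4) (Subtype.ext h5)

/-- a nontrivial subgroup of a `2`-group contains an involution -/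
theorem exists_two {B Q : Subgroup T} (hB : B ≤ Q) {j : ℕ} (hQ : Nat.card Q = 2 ^ j) (hne : B ≠ ⊥) :
    ∃ t ∈ B, orderOf t = 2 := by
  have h1 : 1 < Nat.card B := by
    have hpos := Nat.card_pos (α := B)
    rcases Nat.lt_or_ge 1 (Nat.card B) with h | h
    · exact h
    · have h5 : Nat.card B = 1 := by omega
      exact absurd ((Subgroup.card_eq_one).1 h5) hne
  have h2 : Nat.card B ∣ Nat.card Q := Subgroup.card_dvd_of_le hB
  rw [hQ] at h2
  obtain ⟨i, -, hi⟩ := (Nat.dvd_prime_pow Nat.prime_two).1 h2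
  have h4 : 2 ∣ Nat.card B := by
    rw [hi] at h1 ⊢
    rcases i with _ | i
    · omega
    · exact dvd_pow_self 2 (Nat.succ_ne_zero i)
  have : Fact (Nat.Prime 2) := ⟨Nat.prime_two⟩
  obtain ⟨t, ht⟩ := exists_prime_orderOf_dvd_card' 2 h4
  exact ⟨t, t.2, by rw [Subgroup.orderOf_coe, ht]⟩

end

end Cfsg.Agent.H255.IFK
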