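import Cfsg.Agent.H255.IF.Key
import Cfsg.Agent.H934.HeisChev
import Cfsg.Agent.H430.CfChevTab
import Cfsg.Agent.H83.Count
import Cfsg.Agent.H86.Par

/-!
# S5719, `q` even: a long root involution in `A` gives all long root groups (helper255)

`T : HTab n k` a table of the special group `E` of the highest root (`T.ok`), `O` the orbit of the highest root with the
distances `d` (`DistOk`); `xe_top`: `A` contains the root groups reached by a path of roots at angle 60°.
-/

set_option autoImplicit false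
set_option linter.unusedSectionVars false

namespace Cfsg.Agent.H255.IFR

open scoped Pointwise
open Cfsg Cfsg.Lie Cfsg.Agent.ChevalleyStructure Cfsg.Agent.ChevalleyStructure.Elts
  Cfsg.Agent.ChevalleyStructure.RootWord Cfsg.Agent.ChevalleyStructure.RootCombGood
  Cfsg.Agent.H934.HeisRoot Cfsg.Agent.H934.HeisData Cfsg.Agent.H934.HeisChev
  Cfsg.Agent.H430.CfChev Cfsg.Agent.H70.ChevFix Cfsg.Agent.H255.IFK Subgroup

universe u

/-! ### `Sp` from `Data` -/

section Data

variable {Γ V A K : Type*} [Group Γ] [AddCommGroup V] [AddCommGroup A] (D : Data Γ V A K)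

theorem sp_of_data : Sp D.Zg D.Zg D.Qg where
  le := le_rfl
  le' := D.Zg_le_Qg
  central := by
    rintro w ⟨a, rfl⟩ x hx
    exact D.central (D.Qg_le hx) a
  comm_mem := by
    rintro x ⟨v, a, rfl⟩ y ⟨w, b, rfl⟩
    exact ⟨D.om v w, (D.comm_eq v w a b).symm⟩
  special := by
    rintro x ⟨v, a, rfl⟩ hx z ⟨b, rfl⟩
    have hv : v ≠ 0 := by
      rintro rfl
      apply hx
      obtain ⟨c, hc⟩ := D.exists_X_zero
      exact ⟨c + a, by rw [D.z_add, ← hc]⟩
    obtain ⟨w, hw⟩ := D.special v hv b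
    refine ⟨D.X w, D.X_mem_Qg w, ?_⟩
    have h1 := D.comm_eq v w a 0
    rw [D.z_zero, mul_one, hw] at h1
    exact h1

end Data

variable {D : ChevalleyDatum} (hD : InList D) {F : Type u} [Field F]

/-- the two `xe` agree -/
theorem xe_eq (r : ℕ) (t : F) : H934.HeisChev.xe hD r t = H70.ChevFix.xe hD r t := rfl

local notation "xr" => H934.HeisChev.xe

/-! ### Weyl elements -/

section Weyl

variable [CharP F 2]

/-- the Weyl element `n_i` -/
def ne (i : ℕ) : ↥(D.group F) := ⟨nG hD (D.simple i) 1, nG_mem_group hD _ _⟩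

theorem ne_conj {i s : ℕ} (hi : i < D.rank) (hs : s < D.nroots) (t : F) :
    ne hD i * xr hD s t * (ne hD i)⁻¹ = xr hD (D.reflectRoot i s) t :=
  Subtype.ext (H83.ChevInv.n_conj hD hi hs t)

/-- a word as a group element, in a subgroup containing the `n_i` -/
theorem exists_weyl (K : Subgroup ↥(D.group F)) (hK : ∀ i < D.rank, ne hD i ∈ K) {w : List ℕ}
    (hw : ∀ a ∈ w, a < D.rank) :
    ∃ n ∈ K, ∀ s < D.nroots, ∀ t : F, n * xr hD s t * n⁻¹ = xr hD (wact D w s) t := by
  have G := RootComb.good_of_mem hD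
  induction w with
  | nil => exact ⟨1, one_mem _, fun s _ t => by rw [inv_one, mul_one, one_mul, wact_nil]⟩
  | cons i w ih =>
    have hw' : ∀ a ∈ w, a < D.rank := fun a ha => hw a (by simp [ha])
    obtain ⟨n, hn, h⟩ := ih hw'
    refine ⟨ne hD i * n, mul_mem (hK i (hw i (by simp))) hn, fun s hs t => ?_⟩
    rw [wact_cons, ← ne_conj hD (hw i (by simp)) (wact_lt G hw' hs), ← h s hs t]
    group

/-- `A` contains everything once it contains the root groups of the fundamental roots and their negatives. -/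
theorem eq_top {A : Subgroup ↥(D.group F)}
    (h : ∀ i < D.rank, ∀ t : F, xr hD (D.simple i) t ∈ A ∧ xr hD (D.neg (D.simple i)) t ∈ A) : A = ⊤ := by
  have G := RootComb.good_of_mem hD
  have hn : ∀ i < D.rank, ne hD i ∈ A := by
    intro i hi
    have e : (ne hD i : ↥(D.group F)) = xr hD (D.simple i) 1 * (xr hD (D.neg (D.simple i)) 1 * xr hD (D.simple i) 1) :=
      Subtype.ext (H83.ChevInv.nG_eq hD _)
    rw [e]
    exact mul_mem (h i hi 1).1 (mul_mem (h i hi 1).2 (h i hi 1).1)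
  have h1 : D.group F ≤ A.map (D.group F).subtype := by
    rw [group_le_iff hD]
    intro r hr t
    obtain ⟨i, hi, w, hw, rfl⟩ := exists_word G hr
    obtain ⟨n, hnA, hc⟩ := exists_weyl hD A hn hw
    refine ⟨xr hD (wact D w (D.simple i)) t, ?_, rfl⟩
    rw [← hc _ (NPerm.simple_lt hD hi)]
    exact mul_mem (mul_mem hnA (h i hi t).1) (inv_mem hnA)
  rw [Subgroup.eq_top_iff']
  intro g
  obtain ⟨g', hg', e⟩ := h1 g.2
  have : g' = g := Subtype.ext e
  rwa [← this]

end Weyl

/-! ### The orbit of the highest root -/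

section Orbit

variable {O : List ℕ} {d : ℕ → ℕ} (hO : DistOk D O d)

include hO in
theorem exists_word_top {r : ℕ} (hr : r ∈ O) : ∃ w : List ℕ, (∀ a ∈ w, a < D.rank) ∧ wact D w r = D.nroots - 1 := by
  obtain ⟨m, hm⟩ : ∃ m, m = d r := ⟨_, rfl⟩
  induction m generalizing r with
  | zero =>
    rcases hO.step r hr with h1 | ⟨i, hi, h1, h2⟩
    · exact ⟨[], by simp, h1⟩
    · omega
  | succ m ih =>
    rcases hO.step r hr with h1 | ⟨i, hi, h1, h2⟩
    · exact ⟨[], by simp, h1⟩
    · obtain ⟨w, hw, e⟩ := ih h1 (by omega)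
      refine ⟨w ++ [i], ?_, ?_⟩
      · intro a ha
        rcases List.mem_append.1 ha with ha | ha
        · exact hw a ha
        · rw [List.mem_singleton.1 ha]; exact hi
      · rw [wact_append]; exact e

include hO in
theorem wact_mem {w : List ℕ} (hw : ∀ a ∈ w, a < D.rank) {r : ℕ} (hr : r ∈ O) : wact D w r ∈ O := by
  induction w with
  | nil => exact hr
  | cons i w ih => exact hO.closed _ (ih fun a ha => hw a (by simp [ha])) i (hw i (by simp))

end Orbit

/-! ### The step -/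

section Step

variable {O : List ℕ} {d : ℕ → ℕ} (hO : DistOk D O d) {n k : ℕ} (T : HTab n k) (ok : T.Ok D)
  (hth : T.th = D.nroots - 1)

theorem mem_Zg_iff {g : ↥(D.group F)} : g ∈ (T.rh hD ok F).toData.Zg ↔ ∃ a : F, xr hD T.th a = g := Iff.rfl

include hth in
theorem Zg_eq : (T.rh hD ok F).toData.Zg = XX D F (D.nroots - 1) := by
  ext g
  rw [mem_Zg_iff, mem_XX hD, hth]
  constructor
  · rintro ⟨a, rfl⟩; exact ⟨a, rfl⟩
  · rintro ⟨a, rfl⟩; exact ⟨a, rfl⟩

theorem xS_mem (i : Fin n) (a : F) : xr hD (T.S i) a ∈ (T.rh hD ok F).toData.Qg := by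
  have h1 := (T.rh hD ok F).toData.X_mem_Qg (Pi.single i a)
  have h2 : (T.rh hD ok F).toData.X (Pi.single i a) = xr hD (T.S i) a := (T.rh hD ok F).X_single i a
  rwa [h2] at h1

variable [Fintype F]

include hD hO in
/-- the number of conjugates of an element of `X_θ` -/
theorem index_top_le {c e : ℕ} {L : List ℕ} (hL : O.map d = L) (hk : ∀ x ∈ L, x ≤ e) (hcar : carry L e ≤ c)
    {t : ↥(D.group F)} (ht : t ∈ XX D F (D.nroots - 1)) :
    (centralizer ({t} : Set ↥(D.group F))).index ≤ c * Fintype.card F ^ e * Fintype.card F := by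
  have hfin : Finite (GL D.Idx F) := inferInstance
  have hfinG : Finite ↥(D.group F) := inferInstance
  have h1 := index_normalizer_le (F := F) hD hO
  have h2 : (O.map fun r => Nat.card F ^ d r) = L.map fun x => Nat.card F ^ x := by
    rw [← hL, List.map_map]; rfl
  rw [h2] at h1
  have h3 := h1.trans ((sum_le Finite.one_lt_card L e hk).trans (Nat.mul_le_mul_right _ hcar))
  rw [Nat.card_eq_fintype_card] at h3
  refine (index_centralizer_le (N := Subgroup.normalizer (XX D F (D.nroots - 1) : Set ↥(D.group F)))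
    (Q := XX D F (D.nroots - 1)) (fun m hm x hx => ?_) ht).trans ?_
  · exact (Subgroup.mem_normalizer_iff.1 hm x).1 hx
  · refine Nat.mul_le_mul h3 ?_
    have h4 : Function.Surjective (fun a : F => (⟨H70.ChevFix.xe hD (D.nroots - 1) a, xe_mem_XX hD _ a⟩ :
        XX D F (D.nroots - 1))) := by
      rintro ⟨g, hg⟩
      obtain ⟨a, rfl⟩ := (mem_XX hD).1 hg
      exact ⟨a, rfl⟩
    rw [← Nat.card_eq_fintype_card (α := F)]
    exact Nat.card_le_card_of_surjective _ h4

variable [CharP F 2]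

/-- the bound `|t^T| ≤ c q^(2m+2)` is small -/
theorem num_one {q m c e : ℕ} (hq : 2 ≤ q) (hc : c < 16) (he : e + 1 + 4 ≤ 5 * m) {I : ℕ}
    (h1 : 16 * (q ^ m) ^ 5 < q ^ 4 * I) (h2 : I ≤ c * q ^ e * q) : False := by
  have h3 : 16 * (q ^ m) ^ 5 < c * q ^ (e + 1 + 4) := by
    calc 16 * (q ^ m) ^ 5 < q ^ 4 * I := h1
      _ ≤ q ^ 4 * (c * q ^ e * q) := Nat.mul_le_mul_left _ h2
      _ = _ := by ring
  have h4 : q ^ (e + 1 + 4) ≤ (q ^ m) ^ 5 := by
    rw [← pow_mul]
    exact Nat.pow_le_pow_right (by omega) (by omega)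
  have h5 : c * q ^ (e + 1 + 4) ≤ 16 * (q ^ m) ^ 5 := Nat.mul_le_mul (by omega) h4
  omega

variable (hlev : ∀ r ∈ O, car D (D.nroots - 1) r = 1 → ∃ i, T.S i = r)

include hO ok hth hlev in
/-- **The step.** -/
theorem step {c e m : ℕ} {L : List ℕ} (hL : O.map d = L) (hk : ∀ x ∈ L, x ≤ e) (hcar : carry L e ≤ c)
    (hc : c < 16) (hm : n = 2 * m) (he : e + 1 + 4 ≤ 5 * m) {A : Subgroup ↥(D.group F)} (hA : IFK.Fix A) {r s : ℕ}
    (hr : r ∈ O) (hs : s ∈ O) (hrs : car D s r = 1) {a : F} (ha : a ≠ 0) (hra : xr hD r a ∈ A) (b : F) :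
    xr hD s b ∈ A := by
  have hfin : Finite (GL D.Idx F) := inferInstance
  have hfinG : Finite ↥(D.group F) := inferInstance
  have G := RootComb.good_of_mem hD
  obtain ⟨w, hw, hws⟩ := exists_word_top hO hs
  obtain ⟨g, -, hg⟩ := exists_weyl hD (⊤ : Subgroup ↥(D.group F)) (fun _ _ => mem_top _) hw
  set r' := wact D w r with hr'
  have hr'O : r' ∈ O := wact_mem hO hw hr
  have hcar' : car D (D.nroots - 1) r' = 1 := by
    rw [← hws, hr', car_wact G hw (hO.lt s hs) (hO.lt r hr)]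
    exact hrs
  obtain ⟨i, hi⟩ := hlev r' hr'O hcar'
  set A' := MulAut.conj g • A with hA'
  have hFix : IFK.Fix A' := hA.conj g
  set DD := (T.rh hD ok F).toData with hDD
  have hZ := Zg_eq hD T ok hth (F := F)
  have ht : xr hD r' a ∈ A' := by
    rw [← hg r (hO.lt r hr) a]
    exact conj_mem_conj hra
  have htQ : xr hD r' a ∈ DD.Qg := by rw [← hi]; exact xS_mem hD T ok i a
  have ht1 : xr hD r' a ≠ 1 := fun h => ha (H934.HeisChev.xe_eq_one hD (hO.lt r' hr'O) h)
  have hsq : xr hD r' a * xr hD r' a = 1 := Subtype.ext (H83.ChevInv.xG_sq hD r' a)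
  have ho : orderOf (xr hD r' a) = 2 := orderOf_eq_prime (by rw [pow_two]; exact hsq) ht1
  have htZ : xr hD r' a ∉ DD.Zg := by
    rintro ⟨b', hb'⟩
    have h1 : xr hD T.th b' = xr hD r' a := hb'
    have h2 : xG hD T.th b' = xG hD r' a := congrArg Subtype.val h1
    have h3 : r' = T.th := by
      have hb0 : b' ≠ 0 := by
        rintro rfl
        exact ht1 (by rw [← h1, H934.HeisChev.xe_zero])
      exact H86.Par.eq_of_xG_eq hD ok.th_lt (hO.lt r' hr'O) hb0 h2
    rw [h3, hth, G.car_self (hO.lt _ hO.top)] at hcar'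
    norm_num at hcar'
  -- conjugacy with the elements of `Z`
  have hcj : ∀ z ∈ DD.Zg, z ≠ 1 → IsConj (xr hD r' a) z := by
    rintro z ⟨b', rfl⟩ hz1
    obtain ⟨v, hv, hvr⟩ := exists_word_top hO hr'O
    obtain ⟨y, -, hy⟩ := exists_weyl hD (⊤ : Subgroup ↥(D.group F)) (fun _ _ => mem_top _) hv
    have h1 := hy r' (hO.lt r' hr'O) a
    rw [hvr, ← hth] at h1
    have hb0 : b' ≠ 0 := by
      rintro rfl
      exact hz1 DD.z_zero
    exact (isConj_iff.2 ⟨y, h1⟩).trans (z_isConj hD T ok a b' ha hb0)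
  have hq : Nat.card DD.Zg = Fintype.card F := by rw [DD.card_Zg, Nat.card_eq_fintype_card]
  have hQ : Nat.card DD.Qg = Fintype.card F * (Fintype.card F ^ m) ^ 2 := by
    rw [DD.card_Qg, Nat.card_fun, Nat.card_eq_fintype_card, Nat.card_eq_fintype_card, Fintype.card_fin, hm]
    ring
  have hZA : DD.Zg ≤ A' := by
    by_contra hcon
    have h1 := s1 hFix (sp_of_data DD) hq hQ ht htQ htZ ho hcj hcon
    have hzc := hcj (DD.z 1) ⟨1, rfl⟩ (fun h => one_ne_zero (DD.z_inj _ h))
    have h2 := index_top_le hD hO hL hk hcar (F := F) (t := DD.z 1) (by rw [← hZ]; exact ⟨1, rfl⟩)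
    rw [← index_centralizer_conj hzc] at h2
    exact num_one Fintype.one_lt_card hc he h1 h2
  have h1 : xr hD (D.nroots - 1) b ∈ A' := hZA (by rw [hZ]; exact xe_mem_XX hD _ b)
  rw [hA', mem_conj, ← hws, ← hg s (hO.lt s hs) b] at h1
  have e1 : g⁻¹ * (g * xr hD s b * g⁻¹) * g = xr hD s b := by group
  rwa [e1] at h1

/-- a path of roots at angle 60° -/
def okPath (D : ChevalleyDatum) (O : List ℕ) : ℕ → List ℕ → Bool
  | _, [] => true
  | r, s :: l => O.contains s && decide (car D s r = 1) && okPath D O s l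

include hO ok hth hlev in
/-- **Paths.** -/
theorem path {c e m : ℕ} {L : List ℕ} (hL : O.map d = L) (hk : ∀ x ∈ L, x ≤ e) (hcar : carry L e ≤ c)
    (hc : c < 16) (hm : n = 2 * m) (he : e + 1 + 4 ≤ 5 * m) {A : Subgroup ↥(D.group F)} (hA : IFK.Fix A) :
    ∀ (l : List ℕ) (r : ℕ) (_ : r ∈ O) (_ : okPath D O r l = true) (_ : ∃ a : F, a ≠ 0 ∧ xr hD r a ∈ A)
      (hl : l ≠ []), ∀ b : F, xr hD (l.getLast hl) b ∈ A := by
  intro l
  induction l with
  | nil => intro r _ _ _ hl; exact absurd rfl hl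
  | cons s l ih =>
    intro r hr hok ⟨a, ha, hra⟩ hl b
    unfold okPath at hok
    rw [Bool.and_eq_true, Bool.and_eq_true, List.contains_iff_mem, decide_eq_true_eq] at hok
    have h1 := fun b => step hD hO T ok hth hlev hL hk hcar hc hm he hA hr hok.1.1 hok.1.2 ha hra b
    rcases eq_or_ne l [] with rfl | hl'
    · exact h1 b
    · rw [List.getLast_cons hl']
      exact ih s hok.1.1 hok.2 ⟨1, one_ne_zero, h1 1⟩ hl' b

end Step

end Cfsg.Agent.H255.IFR
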