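import Cfsg.Agent.H255.IF.Root

/-!
# S5719, `q` even: the step for a general special group `E` of the highest root (helper255)

`HE`: a special group `E` with centre `X_θ`, `|E| = q (q^m)²`, containing the root groups `X_r`, `r ∈ O` of level 1.
-/

set_option autoImplicit false
set_option linter.unusedSectionVars false

namespace Cfsg.Agent.H255.IFG

open scoped Pointwise
open Cfsg Cfsg.Lie Cfsg.Agent.ChevalleyStructure Cfsg.Agent.ChevalleyStructure.Elts
  Cfsg.Agent.ChevalleyStructure.RootWord Cfsg.Agent.ChevalleyStructure.RootCombGood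
  Cfsg.Agent.H934.HeisChev Cfsg.Agent.H430.CfChev Cfsg.Agent.H70.ChevFix Cfsg.Agent.H255.IFK
  Cfsg.Agent.H255.IFR Subgroup

universe u

local notation "xr" => H934.HeisChev.xe

variable {D : ChevalleyDatum} (hD : InList D) {F : Type u} [Field F]

/-- `Z = X_θ` -/
abbrev ZT (D : ChevalleyDatum) (F : Type u) [Field F] : Subgroup ↥(D.group F) := XX D F (D.nroots - 1)

include hD in
theorem mem_ZT {g : ↥(D.group F)} : g ∈ ZT D F ↔ ∃ a : F, g = xr hD (D.nroots - 1) a := mem_XX hD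

include hD in
theorem card_ZT [Fintype F] : Nat.card (ZT D F) = Fintype.card F := by
  have hlt : D.nroots - 1 < D.nroots := by have := nroots_pos hD; omega
  rw [← Nat.card_eq_fintype_card (α := F)]
  symm
  refine Nat.card_congr (Equiv.ofBijective (fun a : F => (⟨xr hD (D.nroots - 1) a, (mem_ZT hD).2 ⟨a, rfl⟩⟩ : ZT D F))
    ⟨?_, ?_⟩)
  · intro a b h
    exact H70.ChevFix.xe_inj hD hlt (congrArg Subtype.val h)
  · rintro ⟨g, hg⟩
    obtain ⟨a, rfl⟩ := (mem_ZT hD).1 hg
    exact ⟨a, rfl⟩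

/-- The data. -/
structure HE (O : List ℕ) (m : ℕ) (E : Subgroup ↥(D.group F)) : Prop where
  sp : Sp (ZT D F) (ZT D F) E
  card : Nat.card E = Nat.card F * (Nat.card F ^ m) ^ 2
  mem : ∀ r ∈ O, car D (D.nroots - 1) r = 1 → ∀ a : F, xr hD r a ∈ E
  conjZ : ∀ a b : F, a ≠ 0 → b ≠ 0 → IsConj (xr hD (D.nroots - 1) a) (xr hD (D.nroots - 1) b)

variable [Fintype F] [CharP F 2] {O : List ℕ} {d : ℕ → ℕ} (hO : DistOk D O d) {m : ℕ}
  {E : Subgroup ↥(D.group F)} (hE : HE hD O m E)

include hO in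
/-- the elements of order 2 in the root groups of `O` are conjugate -/
theorem conj_top (hcz : ∀ a b : F, a ≠ 0 → b ≠ 0 → IsConj (xr hD (D.nroots - 1) a) (xr hD (D.nroots - 1) b)) {r : ℕ}
    (hr : r ∈ O) {a b : F} (ha : a ≠ 0) (hb : b ≠ 0) : IsConj (xr hD r a) (xr hD (D.nroots - 1) b) := by
  obtain ⟨v, hv, hvr⟩ := exists_word_top hO hr
  obtain ⟨y, -, hy⟩ := exists_weyl hD (⊤ : Subgroup ↥(D.group F)) (fun _ _ => mem_top _) hv
  have h1 := hy r (hO.lt r hr) a
  rw [hvr] at h1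
  exact (isConj_iff.2 ⟨y, h1⟩).trans (hcz a b ha hb)

include hO hE in
/-- **The step.** -/
theorem step {c e : ℕ} {L : List ℕ} (hL : O.map d = L) (hk : ∀ x ∈ L, x ≤ e) (hcar : carry L e ≤ c)
    (hc : c < 16) (he : e + 1 + 4 ≤ 5 * m) {A : Subgroup ↥(D.group F)} (hA : IFK.Fix A) {r s : ℕ}
    (hr : r ∈ O) (hs : s ∈ O) (hrs : car D s r = 1) {a : F} (ha : a ≠ 0) (hra : xr hD r a ∈ A) (b : F) :
    xr hD s b ∈ A := by
  have hfin : Finite (GL D.Idx F) := inferInstance
  have hfinG : Finite ↥(D.group F) := inferInstance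
  have G := RootComb.good_of_mem hD
  obtain ⟨w, hw, hws⟩ := exists_word_top hO hs
  obtain ⟨g, -, hg⟩ := exists_weyl hD (⊤ : Subgroup ↥(D.group F)) (fun _ _ => mem_top _) hw
  set r' := wact D w r with hr'
  have hr'O : r' ∈ O := wact_mem hO hw hr
  have hcar' : car D (D.nroots - 1) r' = 1 := by
    rw [← hws, hr', car_wact G hw (hO.lt s hs) (hO.lt r hr)]
    exact hrs
  set A' := MulAut.conj g • A with hA'
  have hFix : IFK.Fix A' := hA.conj g
  have ht : xr hD r' a ∈ A' := by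
    rw [← hg r (hO.lt r hr) a]
    exact conj_mem_conj hra
  have htQ : xr hD r' a ∈ E := hE.mem r' hr'O hcar' a
  have ht1 : xr hD r' a ≠ 1 := fun h => ha (H934.HeisChev.xe_eq_one hD (hO.lt r' hr'O) h)
  have hsq : xr hD r' a * xr hD r' a = 1 := Subtype.ext (H83.ChevInv.xG_sq hD r' a)
  have ho : orderOf (xr hD r' a) = 2 := orderOf_eq_prime (by rw [pow_two]; exact hsq) ht1
  have htZ : xr hD r' a ∉ ZT D F := by
    intro hmem
    obtain ⟨b', h1⟩ := (mem_ZT hD).1 hmem
    have h2 : xG hD (D.nroots - 1) b' = xG hD r' a := (congrArg Subtype.val h1).symm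
    have h3 : r' = D.nroots - 1 := by
      have hb0 : b' ≠ 0 := by
        rintro rfl
        exact ht1 (by rw [h1, H934.HeisChev.xe_zero])
      exact H86.Par.eq_of_xG_eq hD (hO.lt _ hO.top) (hO.lt r' hr'O) hb0 h2
    rw [h3, G.car_self (hO.lt _ hO.top)] at hcar'
    norm_num at hcar'
  have hcj : ∀ z ∈ ZT D F, z ≠ 1 → IsConj (xr hD r' a) z := by
    intro z hz hz1
    obtain ⟨b', rfl⟩ := (mem_ZT hD).1 hz
    have hb0 : b' ≠ 0 := by
      rintro rfl
      exact hz1 (H934.HeisChev.xe_zero hD _)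
    exact conj_top hD hO hE.conjZ hr'O ha hb0
  have hq := card_ZT hD (F := F)
  have hQ : Nat.card E = Fintype.card F * (Fintype.card F ^ m) ^ 2 := by
    rw [hE.card, Nat.card_eq_fintype_card]
  have hZA : ZT D F ≤ A' := by
    by_contra hcon
    have h1 := s1 hFix hE.sp hq hQ ht htQ htZ ho hcj hcon
    have hz1 : xr hD (D.nroots - 1) (1 : F) ∈ ZT D F := (mem_ZT hD).2 ⟨1, rfl⟩
    have hzc := hcj _ hz1 (fun h => one_ne_zero (H934.HeisChev.xe_eq_one hD (hO.lt _ hO.top) h))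
    have h2 := index_top_le hD hO hL hk hcar (F := F) hz1
    rw [← index_centralizer_conj hzc] at h2
    exact num_one Fintype.one_lt_card hc he h1 h2
  have h1 : xr hD (D.nroots - 1) b ∈ A' := hZA ((mem_ZT hD).2 ⟨b, rfl⟩)
  rw [hA', mem_conj, ← hws, ← hg s (hO.lt s hs) b] at h1
  have e1 : g⁻¹ * (g * xr hD s b * g⁻¹) * g = xr hD s b := by group
  rwa [e1] at h1

include hO hE in
/-- **Paths.** -/
theorem path {c e : ℕ} {L : List ℕ} (hL : O.map d = L) (hk : ∀ x ∈ L, x ≤ e) (hcar : carry L e ≤ c)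
    (hc : c < 16) (he : e + 1 + 4 ≤ 5 * m) {A : Subgroup ↥(D.group F)} (hA : IFK.Fix A) :
    ∀ (l : List ℕ) (r : ℕ) (_ : r ∈ O) (_ : okPath D O r l = true) (_ : ∃ a : F, a ≠ 0 ∧ xr hD r a ∈ A)
      (hl : l ≠ []), ∀ b : F, xr hD (l.getLast hl) b ∈ A := by
  intro l
  induction l with
  | nil => intro r _ _ _ hl; exact absurd rfl hl
  | cons s l ih =>
    intro r hr hok ⟨a, ha, hra⟩ hl b
    unfold okPath at hok
    rw [Bool.and_eq_true, Bool.and_eq_true, List.contains_iff_mem, decide_eq_true_eq] at hok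
    have h1 := fun b => step hD hO hE hL hk hcar hc he hA hr hok.1.1 hok.1.2 ha hra b
    rcases eq_or_ne l [] with rfl | hl'
    · exact h1 b
    · rw [List.getLast_cons hl']
      exact ih s hok.1.1 hok.2 ⟨1, one_ne_zero, h1 1⟩ hl' b

/-- paths to all roots of `O` -/
def okAll (D : ChevalleyDatum) (O : List ℕ) (pp : ℕ → List ℕ) : Bool :=
  O.all fun s => okPath D O (D.nroots - 1) (pp s) && decide (pp s ≠ []) && decide ((pp s).getLastD 0 = s)

theorem getLast_eq {l : List ℕ} (hl : l ≠ []) {r : ℕ} (h : l.getLastD 0 = r) : l.getLast hl = r := by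
  rw [← h, List.getLastD_eq_getLast?, List.getLast?_eq_some_getLast hl]
  rfl

include hO hE in
/-- one root involution gives all root groups of `O` -/
theorem all_of_top {pp : ℕ → List ℕ} (hpp : okAll D O pp = true) {c e : ℕ} {L : List ℕ} (hL : O.map d = L)
    (hk : ∀ x ∈ L, x ≤ e) (hcar : carry L e ≤ c) (hc : c < 16) (he : e + 1 + 4 ≤ 5 * m)
    {A : Subgroup ↥(D.group F)} (hA : IFK.Fix A) {a : F} (ha : a ≠ 0) (h : xr hD (D.nroots - 1) a ∈ A) :
    ∀ s ∈ O, ∀ b : F, xr hD s b ∈ A := by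
  intro s hs b
  unfold okAll at hpp
  rw [List.all_eq_true] at hpp
  have h1 := hpp s hs
  rw [Bool.and_eq_true, Bool.and_eq_true, decide_eq_true_eq, decide_eq_true_eq] at h1
  rw [← getLast_eq h1.1.2 h1.2]
  exact path hD hO hE hL hk hcar hc he hA _ _ hO.top h1.1.1 ⟨a, ha, h⟩ h1.1.2 b

/-! ### Orders of subgroups containing root groups -/

omit [CharP F 2] in
/-- a subgroup containing the root groups of a set `S` of positive roots has order at least `q^|S|` -/
theorem card_ge {K : Subgroup ↥(D.group F)} (S : Finset ℕ) (hS : ∀ r ∈ S, D.nroots / 2 ≤ r ∧ r < D.nroots)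
    (hK : ∀ r ∈ S, ∀ a : F, xr hD r a ∈ K) : Fintype.card F ^ S.card ≤ Nat.card K := by
  classical
  have hfin : Finite (GL D.Idx F) := inferInstance
  have hfinG : Finite ↥(D.group F) := inferInstance
  let ext : (S → F) → ℕ → F := fun w r => if h : r ∈ S then w ⟨r, h⟩ else 0
  have h1 : ∀ (w : S → F) (l : List ℕ), ∃ k ∈ K, (k : GL D.Idx F) = wordG hD (l.map fun r => (r, ext w r)) := by
    intro w l
    induction l with
    | nil => exact ⟨1, one_mem _, by rw [List.map_nil, wordG_nil]; rfl⟩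
    | cons r l ih =>
      obtain ⟨k, hk, e⟩ := ih
      by_cases h : r ∈ S
      · refine ⟨xr hD r (ext w r) * k, mul_mem (hK r h _) hk, ?_⟩
        rw [List.map_cons, wordG_cons, ← e]
        rfl
      · refine ⟨k, hk, ?_⟩
        rw [List.map_cons, wordG_cons, ← e]
        show (k : GL D.Idx F) = xG hD r (ext w r) * k
        rw [show ext w r = 0 from dif_neg h, xG_zero, one_mul]
  choose φ hφ hφ' using fun w : S → F => h1 w (UnipProd.rootsGE D (D.nroots / 2))
  have h2 : Function.Injective fun w : S → F => (⟨φ w, hφ w⟩ : K) := by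
    intro w w' h
    have h3 : (φ w : GL D.Idx F) = φ w' := congrArg (fun x : K => ((x : ↥(D.group F)) : GL D.Idx F)) h
    rw [hφ', hφ'] at h3
    have h4 := UnipProd.prod_injective hD le_rfl h3
    funext r
    have h5 := h4 r.1 (hS r.1 r.2).1 (hS r.1 r.2).2
    rw [show ext w r.1 = w r from dif_pos r.2, show ext w' r.1 = w' r from dif_pos r.2] at h5
    exact h5
  have h3 := Nat.card_le_card_of_injective _ h2
  rw [Nat.card_fun, Nat.card_eq_fintype_card, Nat.card_eq_fintype_card, Fintype.card_coe] at h3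
  exact h3

/-- the group `Q` of all roots of positive level, in the Chevalley group -/
abbrev QT (D : ChevalleyDatum) (F : Type u) [Field F] : Subgroup ↥(D.group F) :=
  (H86.Graded.Q D F (D.nroots - 1)).subgroupOf (D.group F)

omit [Fintype F] [CharP F 2] in
theorem mem_QT {r : ℕ} (hr : r < D.nroots) (h : 1 ≤ car D (D.nroots - 1) r) (a : F) : xr hD r a ∈ QT D F :=
  H86.Graded.xG_mem_Q hD hr h a

include hD in
omit [CharP F 2] in
theorem card_QT_ge {j : ℕ} (hj : j ≤ ((Finset.range D.nroots).filter fun r => 1 ≤ car D (D.nroots - 1) r).card) :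
    Fintype.card F ^ j ≤ Nat.card (QT D F) := by
  refine (Nat.pow_le_pow_right Fintype.card_pos hj).trans (card_ge hD _ (fun r hr => ?_) fun r hr a => ?_)
  · rw [Finset.mem_filter, Finset.mem_range] at hr
    exact ⟨((UnipOrd.isPosRoot_iff hD r).1 (H86.Par.pos_of_level hD hr.1 hr.2)).1, hr.1⟩
  · rw [Finset.mem_filter, Finset.mem_range] at hr
    exact mem_QT hD hr.1 hr.2 a

omit [Fintype F] [CharP F 2] in
/-- an element of `Q` centralising `x_{-θ}(1)` is trivial -/
theorem eq_one_of_comm {c : ↥(D.group F)} (hc : c ∈ QT D F)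
    (h : c * xr hD (D.neg (D.nroots - 1)) 1 = xr hD (D.neg (D.nroots - 1)) 1 * c) : c = 1 := by
  apply Subtype.ext
  exact H86.Graded.eq_one_of_conj hD (H86.Par.good hD) (H86.Par.hiT hD) hc (t₁ := 1) (t₂ := 1) one_ne_zero
    (congrArg Subtype.val h)

omit [Fintype F] [CharP F 2] in
theorem QT_comm_top {c : ↥(D.group F)} (hc : c ∈ QT D F) (t : F) :
    c * xr hD (D.nroots - 1) t = xr hD (D.nroots - 1) t * c := by
  have hle : H86.Graded.Q D F (D.nroots - 1) ≤
      Subgroup.centralizer ({xG hD (D.nroots - 1) t} : Set (GL D.Idx F)) := by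
    rw [H86.Graded.Q_le_iff hD]
    intro r hr hl u
    rw [Subgroup.mem_centralizer_singleton_iff]
    have hl0 : 0 ≤ car D (H86.Par.top D) r := le_trans zero_le_one hl
    exact H86.Par.comm_top0 hD hr hl0 u t
  exact Subtype.ext (Subgroup.mem_centralizer_singleton_iff.1 (hle hc))

include hO in
/-- **(S1, iii)** -/
theorem small (hcz : ∀ a b : F, a ≠ 0 → b ≠ 0 → IsConj (xr hD (D.nroots - 1) a) (xr hD (D.nroots - 1) b))
    (hneg : D.neg (D.nroots - 1) ∈ O) {c e j : ℕ} {L : List ℕ} (hL : O.map d = L)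
    (hk : ∀ x ∈ L, x ≤ e) (hcar : carry L e ≤ c) (hc : c < 8) (hej : e ≤ j)
    (hj : j ≤ ((Finset.range D.nroots).filter fun r => 1 ≤ car D (D.nroots - 1) r).card)
    {A : Subgroup ↥(D.group F)} (hA : IFK.Fix A)
    (h : ∀ s ∈ O, ∀ b : F, xr hD s b ∈ A) :
    ∃ f : ℕ, f < Fintype.card F ∧ ∀ B : Subgroup ↥(D.group F),
      B ≤ centralizer ({xr hD (D.nroots - 1) 1} : Set ↥(D.group F)) → A.relIndex B ≤ f := by
  have hfin : Finite (GL D.Idx F) := inferInstance
  have hfinG : Finite ↥(D.group F) := inferInstance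
  have hlt := hO.lt _ hO.top
  set t := xr hD (D.nroots - 1) (1 : F) with ht
  set x := xr hD (D.neg (D.nroots - 1)) (1 : F) with hx
  have ht1 : t ≠ 1 := fun h => one_ne_zero (H934.HeisChev.xe_eq_one hD hlt h)
  have ho : orderOf t = 2 :=
    orderOf_eq_prime (by rw [pow_two]; exact Subtype.ext (H83.ChevInv.xG_sq hD _ _)) ht1
  obtain ⟨f, h1, h2⟩ := s13 (Q := QT D F) hA (h _ hO.top 1) ho (h _ hneg 1)
    (conj_top hD hO hcz hneg one_ne_zero one_ne_zero).symm
    (fun c hc => Subgroup.mem_centralizer_singleton_iff.2 (QT_comm_top hD hc 1))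
    (fun c hc hcx => eq_one_of_comm hD hc hcx)
  refine ⟨f, ?_, h1⟩
  have h3 := index_top_le hD hO hL hk hcar (F := F) (t := t) ((mem_ZT hD).2 ⟨1, rfl⟩)
  have h4 := card_QT_ge hD (F := F) hj
  set q := Fintype.card F with hq
  have hq2 : 2 ≤ q := Fintype.one_lt_card
  by_contra hcon
  push Not at hcon
  have h5 : q ^ 4 * q ^ e < 8 * q * q ^ e := by
    calc q ^ 4 * q ^ e ≤ f ^ 4 * q ^ j :=
          Nat.mul_le_mul (Nat.pow_le_pow_left hcon 4) (Nat.pow_le_pow_right (by omega) hej)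
      _ ≤ f ^ 4 * Nat.card (QT D F) := Nat.mul_le_mul_left _ h4
      _ < c * q ^ e * q := lt_of_lt_of_le h2 h3
      _ ≤ 8 * q ^ e * q := by gcongr
      _ = 8 * q * q ^ e := by ring
  have h6 : q ^ 4 < 8 * q := lt_of_mul_lt_mul_right h5 (Nat.zero_le _)
  have h7 : 8 * q ≤ q ^ 4 := by
    calc 8 * q = 2 ^ 3 * q := by norm_num
      _ ≤ q ^ 3 * q := Nat.mul_le_mul_right _ (Nat.pow_le_pow_left hq2 3)
      _ = q ^ 4 := by ring
  omega

end Cfsg.Agent.H255.IFG
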